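import Cfsg.Agent.H939.L16.Def
import Cfsg.Agent.H280.L16.Exi
import Cfsg.Agent.H955.L16.Stmt

/-!
# S5916: interface of the case `i ≠ 1`, `L^S = 0` (PLAN of helper955)
-/

set_option autoImplicit false
set_option maxRecDepth 100000

namespace Cfsg.Agent.H939.L16

open Matrix Cfsg Cfsg.Lie
open Cfsg.Agent.H939.L64 (KK E2 LK em aK rE fr brK)
open Cfsg.Agent.H413.L16 (er hv hr tg)
open Cfsg.Agent.H943.SL2Mod Cfsg.Agent.H943.RepAdd
open Cfsg.Agent.H280.L16 (PDat Fam1 Fam2 Fam3)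
open Cfsg.Agent.H955.L16 (vR vN T)

/-! ### classes of vectors (names of helper955) -/

/-- the vectors allowed in the simple submodules (after the eliminations) -/
def Good (Fp : LK → LK) (ta : LK →ₗ[KK] LK) (v : LK) : Prop :=
  ∃ (j : ℕ) (u : LK), ((∃ k r1 r2 r3 r0, u = vR k 0 0 r1 r2 r3 r0) ∨ ∃ K1 K2 A A2 B, A * A2 = 0 ∧ u = vN K1 K2 A A2 B) ∧
    (v = Fp^[j] u ∨ v = T ta (Fp^[j] u))

/-- `f` of a root : the sum of the `⟨r, p_j⟩` -/
def fv (s : ℕ) : ℤ :=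
  Cfsg.Agent.ChevalleyStructure.Columns.car chevE8 6 s + Cfsg.Agent.ChevalleyStructure.Columns.car chevE8 4 s +
  Cfsg.Agent.ChevalleyStructure.Columns.car chevE8 1 s + Cfsg.Agent.ChevalleyStructure.Columns.car chevE8 2 s

/-- the parabolic subalgebra `f ≥ 0` -/
noncomputable def Pf : Submodule KK LK where
  carrier := {v | ∀ s : Fin chevE8.nroots, fv s < 0 → v (Sum.inr s) = 0}
  add_mem' := fun ha hb s hs => by rw [Pi.add_apply, ha s hs, hb s hs, add_zero]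
  zero_mem' := fun _ _ => rfl
  smul_mem' := fun c v hv s hs => by rw [Pi.smul_apply, hv s hs, smul_zero]

/-- the Lie algebra generated by a subspace -/
noncomputable def lieS (N : Submodule KK LK) : Submodule KK LK :=
  sInf {A | N ≤ A ∧ ∀ u ∈ A, ∀ v ∈ A, brK u v ∈ A}

/-! ### the canonical submodules -/

section

variable {F : Type} [Field F] [Fintype F]

/-- simple submodules -/
def Simp (ρ : Representation KK (SpecialLinearGroup (Fin 2) F) LK) (X : Submodule KK LK) : Prop :=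
  Inv ρ X ∧ X ≠ ⊥ ∧ ∀ Y ≤ X, Inv ρ Y → Y = ⊥ ∨ Y = X

/-- the sum of the simple submodules of dimension `2 ^ n` -/
noncomputable def NN (ρ : Representation KK (SpecialLinearGroup (Fin 2) F) LK) (n : ℕ) : Submodule KK LK :=
  sSup {X | Simp ρ X ∧ Module.finrank KK X = 2 ^ n}

/-- no family with fewer than `n` distinct exponents -/
def MinF (P : SpecialLinearGroup (Fin 2) F →* Matrix (Fin 2) (Fin 2) KK)
    (ρ : Representation KK (SpecialLinearGroup (Fin 2) F) LK) (n : ℕ) : Prop :=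
  (∀ v, (∀ s, ρ s v = v) → v = 0) ∧ (1 < n → ∀ i < 4, ∀ w, Fam1 P ρ i w → w = 0) ∧
    (2 < n → ∀ i < 4, ∀ j < 4, i ≠ j → ∀ w, Fam2 P ρ i j w → w = 0)

/-- all vectors of the families with `n` exponents, `n = 1, 2, 3` -/
def FamV (P : SpecialLinearGroup (Fin 2) F →* Matrix (Fin 2) (Fin 2) KK)
    (ρ : Representation KK (SpecialLinearGroup (Fin 2) F) LK) (n : ℕ) : Set LK :=
  {v | (n = 1 ∧ ∃ i < 4, ∃ w, Fam1 P ρ i w ∧ ∃ a, v = w a) ∨
    (n = 2 ∧ ∃ i j, i < j ∧ j < 4 ∧ ∃ w, Fam2 P ρ i j w ∧ ∃ a b, v = w a b) ∨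
    (n = 3 ∧ ∃ i j l, i < j ∧ j < l ∧ l < 4 ∧ ∃ w, Fam3 P ρ i j l w ∧ ∃ a b c, v = w a b c)}

end

end Cfsg.Agent.H939.L16
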